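import Groth.Agent.Pi1.H405.FiveTerm
import Groth.Agent.Etcore.ShriekBasic
import Groth.Agent.Sga4B.Pure
import Groth.Agent.Etrest.IsoInv
import Groth.Agent.EtpbcA.ConsExact
import Groth.Agent.EtpbcA.StrataGlob
import Groth.Agent.Etbase.PushExact

/-!
# Sheaves which are the direct image of their restriction to an open subscheme

* `isIso_unit_of_iso_push`: `M ≅ j_* G` implies that `M → j_* j^* M` is an isomorphism (`j` an open immersion);
* `isIso_unit_of_shortExact`: stability under extensions.
-/

set_option autoImplicit false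
universe u
open CategoryTheory CategoryTheory.Limits AlgebraicGeometry Opposite

namespace Groth.Agent.Pi1.H405.Closed

section Abstract

universe v₁ u₁

variable {C : Type u₁} [Category.{v₁} C]

/-- Isomorphic objects: the components of a natural transformation are isomorphisms together. -/
theorem isIso_app_of_iso {T T' : C ⥤ C} (η : T ⟶ T') {M N : C} (e : M ≅ N)
    (h : IsIso (η.app M)) : IsIso (η.app N) := by
  have h1 : T.map e.hom ≫ η.app N = η.app M ≫ T'.map e.hom := η.naturality e.hom
  have h2 : IsIso (T.map e.hom ≫ η.app N) := by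
    rw [h1]
    infer_instance
  exact IsIso.of_isIso_comp_left (T.map e.hom) (η.app N)

/-- If `T` is left exact, the objects where `η : 𝟭 ⟶ T` is an isomorphism are stable under extensions. -/
theorem isIso_app_of_shortExact [Abelian C] {T : C ⥤ C} [T.PreservesZeroMorphisms]
    [PreservesFiniteLimits T] (η : 𝟭 C ⟶ T) {S : ShortComplex C} (hS : S.ShortExact)
    (h1 : IsIso (η.app S.X₁)) (h3 : IsIso (η.app S.X₃)) : IsIso (η.app S.X₂) := by
  have hmono := hS.mono_f
  have hepi := hS.epi_g
  have hTm : Mono (T.map S.f) := inferInstance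
  have hTe : Epi (T.map S.g) := by
    have h := η.naturality S.g
    have h4 : Epi (η.app S.X₂ ≫ T.map S.g) := by
      rw [← h]
      have : Epi ((𝟭 C).map S.g) := hepi
      infer_instance
    exact epi_of_epi (η.app S.X₂) _
  have hTS : (S.map T).ShortExact :=
    { exact := hS.exact.map_of_mono_of_preservesKernel T hmono inferInstance
      mono_f := hTm
      epi_g := hTe }
  let φ : S ⟶ S.map T :=
    { τ₁ := η.app S.X₁
      τ₂ := η.app S.X₂
      τ₃ := η.app S.X₃
      comm₁₂ := (η.naturality S.f).symm
      comm₂₃ := (η.naturality S.g).symm }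
  have a1 : IsIso φ.τ₁ := h1
  have a3 : IsIso φ.τ₃ := h3
  exact ShortComplex.isIso₂_of_shortExact_of_isIso₁₃ φ hS hTS

end Abstract

variable {U X : Scheme.{u}} (j : U ⟶ X)

theorem isIso_unit_of_iso {M N : EtCoh.Ab X} (e : M ≅ N)
    (h : IsIso ((EtCoh.pullPushAdj j).unit.app M)) : IsIso ((EtCoh.pullPushAdj j).unit.app N) :=
  isIso_app_of_iso _ e h

theorem isIso_unit_of_shortExact {S : ShortComplex (EtCoh.Ab X)} (hS : S.ShortExact)
    (h1 : IsIso ((EtCoh.pullPushAdj j).unit.app S.X₁))
    (h3 : IsIso ((EtCoh.pullPushAdj j).unit.app S.X₃)) :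
    IsIso ((EtCoh.pullPushAdj j).unit.app S.X₂) := by
  have : PreservesFiniteLimits (EtCoh.pull j) := S0101.result j
  have : PreservesFiniteLimits (EtCoh.pull j ⋙ EtCoh.push j) := comp_preservesFiniteLimits _ _
  exact isIso_app_of_shortExact _ hS h1 h3

theorem isIso_unit_of_isZero {M : EtCoh.Ab X} (h : IsZero M) :
    IsIso ((EtCoh.pullPushAdj j).unit.app M) :=
  h.isIso ((EtCoh.pull j ⋙ EtCoh.push j).map_isZero h) _

/-- A direct image along an open immersion is recovered from its restriction. -/
theorem isIso_unit_of_iso_push [IsOpenImmersion j] {M : EtCoh.Ab X} {G : EtCoh.Ab U}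
    (e : M ≅ (EtCoh.push j).obj G) : IsIso ((EtCoh.pullPushAdj j).unit.app M) := by
  have hf : (EtCoh.push j).Full := Etcore.ShriekBasic.push_full j
  have hff : (EtCoh.push j).Faithful := Etcore.ShriekBasic.push_faithful j
  rw [Adjunction.isIso_unit_app_iff_mem_essImage]
  exact ⟨G, ⟨e.symm⟩⟩

end Groth.Agent.Pi1.H405.Closed
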