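import Groth.Agent.Etrest.FinComp

/-!
# Low degree exact sequence of a composition of direct images

`exists_shortExact`: if `R² k_* (a_* F) = 0` there is a short exact sequence
`0 → R¹ k_* (a_* F) → R¹ (a ≫ k)_* F → k_* R¹ a_* F → 0`.
-/

set_option autoImplicit false
universe u
open CategoryTheory CategoryTheory.Limits AlgebraicGeometry Opposite

namespace Groth.Agent.Pi1.H405.FiveTerm

open Groth.Agent.Etrest.FinDev Groth.Agent.Etrest.FinComp

section Diagram

universe v₂ u₂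

variable {D : Type u₂} [Category.{v₂} D] [Abelian D]

/-- `A → B → R → 0`, `0 → B → Z → E → 0`, `A → Z → H → 0` exact give `0 → R → H → E → 0` exact. -/
theorem exists_shortExact_of_diagram {A B Z H R E : D} (p : A ⟶ B) (i : B ⟶ Z) (q : Z ⟶ H)
    (δ : B ⟶ R) (π : Z ⟶ E)
    (w₁ : (p ≫ i) ≫ q = 0) (w₂ : i ≫ π = 0) (w₃ : p ≫ δ = 0) [Epi q] [Mono i] [Epi δ] [Epi π]
    (e₁ : (ShortComplex.mk (p ≫ i) q w₁).Exact)
    (e₂ : (ShortComplex.mk i π w₂).Exact) (e₃ : (ShortComplex.mk p δ w₃).Exact) :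
    ∃ (m : R ⟶ H) (n : H ⟶ E) (w : m ≫ n = 0), (ShortComplex.mk m n w).ShortExact := by
  have : Epi (ShortComplex.mk p δ w₃).g := by dsimp; infer_instance
  have : Epi (ShortComplex.mk (p ≫ i) q w₁).g := by dsimp; infer_instance
  have : Mono (ShortComplex.mk i π w₂).f := by dsimp; infer_instance
  have hw : p ≫ (i ≫ q) = 0 := by rw [← Category.assoc]; exact w₁
  let m : R ⟶ H := e₃.desc (i ≫ q) hw
  have hm : δ ≫ m = i ≫ q := e₃.g_desc _ _
  have hw' : (p ≫ i) ≫ π = 0 := by rw [Category.assoc, w₂, comp_zero]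
  let n : H ⟶ E := e₁.desc π hw'
  have hn : q ≫ n = π := e₁.g_desc _ _
  have w : m ≫ n = 0 := by
    rw [← cancel_epi δ, ← Category.assoc, hm, Category.assoc, hn, w₂, comp_zero]
  have hmono : Mono m := by
    rw [Preadditive.mono_iff_cancel_zero]
    intro T x hx
    obtain ⟨T', a, _, y, hy⟩ := surjective_up_to_refinements_of_epi δ x
    have h1 : (y ≫ i) ≫ q = 0 := by
      rw [Category.assoc, ← hm, ← Category.assoc, ← hy, Category.assoc, hx, comp_zero]
    obtain ⟨T'', b, _, z, hz⟩ := e₁.exact_up_to_refinements (y ≫ i) h1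
    dsimp at hz
    have h2 : b ≫ y = z ≫ p := by
      rw [← cancel_mono i]; simpa using hz
    rw [← cancel_epi a, ← cancel_epi b, hy, ← Category.assoc, h2, Category.assoc, w₃]
    simp
  have hepi : Epi n := by
    have : Epi (q ≫ n) := by rw [hn]; infer_instance
    exact epi_of_epi q n
  refine ⟨m, n, w, ?_⟩
  have hex : (ShortComplex.mk m n w).Exact := by
    rw [ShortComplex.exact_iff_exact_up_to_refinements]
    intro T x hx
    dsimp at x hx
    obtain ⟨T', a, ha, z, hz⟩ := surjective_up_to_refinements_of_epi q x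
    have h1 : z ≫ π = 0 := by
      rw [← hn, ← Category.assoc, ← hz, Category.assoc, hx, comp_zero]
    refine ⟨T', a, ha, e₂.lift z h1 ≫ δ, ?_⟩
    have h2 : e₂.lift z h1 ≫ i = z := e₂.lift_f _ _
    change a ≫ x = (e₂.lift z h1 ≫ δ) ≫ m
    rw [hz, Category.assoc, hm, ← Category.assoc, h2]
  exact { exact := hex, mono_f := hmono, epi_g := hepi }

end Diagram

section Abstract

universe v₁ v₂ u₁ u₂

variable {C : Type u₁} [Category.{v₁} C] [Abelian C] {D : Type u₂} [Category.{v₂} D] [Abelian D]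
  (K : CochainComplex C ℕ) {R : ℕ → C ⥤ D} [∀ n, (R n).PreservesZeroMorphisms] (hR : HasLES R)
  (G : C ⥤ D) [G.Additive] [PreservesFiniteLimits G] (e : R 0 ≅ G)

include hR e in
/-- `0 → R¹ Z⁰ → H¹(G K) → G (H¹ K) → 0` if `R² Z⁰ = 0` and `K⁰` is acyclic. -/
theorem exists_shortExact_complex (hK : IsZero ((R 1).obj (K.X 0)))
    (h2 : IsZero ((R 2).obj (K.cycles 0))) :
    ∃ (m : (R 1).obj (K.cycles 0) ⟶ (mapCx G K).homology (0 + 1))
      (n : (mapCx G K).homology (0 + 1) ⟶ G.obj (K.homology (0 + 1))) (w : m ≫ n = 0),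
      (ShortComplex.mk m n w).ShortExact := by
  obtain ⟨δ, w, e₃, hepi⟩ := exact_delta K hR G e 0
  have hδ : Epi δ := hepi hK
  have hi : Mono (G.map (image.ι (K.toCycles 0 (0 + 1)))) := inferInstance
  have w₁ : (G.map (factorThruImage (K.toCycles 0 (0 + 1))) ≫
      G.map (image.ι (K.toCycles 0 (0 + 1)))) ≫
      ((cyclesIso K G (0 + 1)).hom ≫ (mapCx G K).homologyπ (0 + 1)) = 0 := by
    rw [← G.map_comp, image.fac]
    exact map_toCycles_zero K G 0
  have w₂ : G.map (image.ι (K.toCycles 0 (0 + 1))) ≫ G.map (K.homologyπ (0 + 1)) = 0 := by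
    rw [← G.map_comp, imageι_homologyπ, G.map_zero]
  -- `R¹ k_* B¹ = R² k_* Z⁰ = 0`
  have hB : IsZero ((R 1).obj (bd K 0)) := by
    obtain ⟨δ', w₁', w₂', e₁', e₂'⟩ := hR.les _ (sc₁_shortExact K 0) 1
    exact e₁'.isZero_of_both_zeros (hK.eq_of_src _ _) (h2.eq_of_tgt _ _)
  have hπ : Epi (G.map (K.homologyπ (0 + 1))) := by
    obtain ⟨δ', w₁', w₂', e₁', e₂'⟩ := hR.les _ (sc₂_shortExact K 0) 0
    have h3 : Epi ((R 0).map (K.homologyπ (0 + 1))) :=
      e₁'.epi_f (hB.eq_of_tgt _ _)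
    have h4 := e.hom.naturality (K.homologyπ (0 + 1))
    have h5 : Epi (e.hom.app (K.cycles (0 + 1)) ≫ G.map (K.homologyπ (0 + 1))) := by
      rw [← h4]
      infer_instance
    exact epi_of_epi (e.hom.app (K.cycles (0 + 1))) _
  have e₁ : (ShortComplex.mk (G.map (factorThruImage (K.toCycles 0 (0 + 1))) ≫
      G.map (image.ι (K.toCycles 0 (0 + 1)))) _ w₁).Exact := by
    have := exact_homology K G 0
    convert this using 2
    rw [← G.map_comp, image.fac]
  have e₂ : (ShortComplex.mk _ _ w₂).Exact :=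
    (sc₂_shortExact K 0).exact.map_of_mono_of_preservesKernel G
      (sc₂_shortExact K 0).mono_f inferInstance
  have hq : Epi ((cyclesIso K G (0 + 1)).hom ≫ (mapCx G K).homologyπ (0 + 1)) := inferInstance
  exact exists_shortExact_of_diagram _ _ _ _ _ w₁ w₂ w e₁ e₂ e₃

end Abstract

variable {U V X : Scheme.{u}} (a : U ⟶ V) (k : V ⟶ X) (F : EtCoh.Ab U)

/-- The low degree exact sequence for the composition `k_* ∘ a_*`. -/
theorem exists_shortExact (h2 : IsZero ((EtCoh.Rpush k 2).obj ((EtCoh.push a).obj F))) :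
    ∃ S : ShortComplex (EtCoh.Ab X), S.ShortExact ∧
      Nonempty (S.X₁ ≅ (EtCoh.Rpush k 1).obj ((EtCoh.push a).obj F)) ∧
      Nonempty (S.X₂ ≅ (EtCoh.Rpush (a ≫ k) 1).obj F) ∧
      Nonempty (S.X₃ ≅ (EtCoh.push k).obj ((EtCoh.Rpush a 1).obj F)) := by
  let eZ : (res a F).cycles 0 ≅ (EtCoh.push a).obj F :=
    ((res a F).isoHomologyπ _ 0 rfl (by simp)) ≪≫ resIso a F 0 ≪≫ (rpushZero a).app F
  obtain ⟨m, n, w', hS⟩ := exists_shortExact_complex (res a F) (hasLES k) (EtCoh.push k)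
    (rpushZero k) (res_acyclic a k F 0 0) (h2.of_iso ((EtCoh.Rpush k 2).mapIso eZ))
  exact ⟨_, hS, ⟨(EtCoh.Rpush k 1).mapIso eZ⟩, ⟨resCompIso a k F 1⟩,
    ⟨(EtCoh.push k).mapIso (resIso a F 1)⟩⟩

end Groth.Agent.Pi1.H405.FiveTerm
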