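import Groth.Agent.Sga4B.PushoutQuot
import Groth.Agent.FlatB.AffSpaceSmooth
import Mathlib.AlgebraicGeometry.Morphisms.Etale
import Mathlib.AlgebraicGeometry.Morphisms.FinitePresentation

/-!
# Étale coordinates: relative dimension, and restriction to a coordinate hyperplane

For a ring map `p : R → A` and `a : ι → A` with `R[T_ι] → A` étale:
* `smoothOfRelativeDimension`: `Spec A → Spec R` is smooth of relative dimension `card ι`;
* `etale_quotient`: `R[T_{ι ∖ i}] → A / (a i)` is étale.
-/

set_option autoImplicit false
universe u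

open CategoryTheory CategoryTheory.Limits AlgebraicGeometry

namespace Groth.Agent.Pi1.H405.Geom

variable {R A : Type u} [CommRing R] [CommRing A] {ι : Type u} (p : R →+* A) (a : ι → A)

theorem smoothOfRelativeDimension [Finite ι] (h : (MvPolynomial.eval₂Hom p a).Etale) :
    SmoothOfRelativeDimension (Nat.card ι) (Spec.map (CommRingCat.ofHom p)) := by
  let e : ι ≃ Fin (Nat.card ι) := Finite.equivFin ι
  have h1 : ((MvPolynomial.eval₂Hom p a).comp (MvPolynomial.renameEquiv R e.symm).toRingEquiv.toRingHom).Etale :=
    RingHom.Etale.stableUnderComposition _ _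
      (RingHom.Etale.of_bijective (f := (MvPolynomial.renameEquiv R e.symm).toRingEquiv.toRingHom)
        (MvPolynomial.renameEquiv R e.symm).bijective) h
  have h2 : Etale (Spec.map (CommRingCat.ofHom
      ((MvPolynomial.eval₂Hom p a).comp (MvPolynomial.renameEquiv R e.symm).toRingEquiv.toRingHom))) := by
    rw [HasRingHomProperty.Spec_iff (P := @Etale)]
    exact h1
  have h3 := FlatB.AffSpaceSmooth.smoothOfRelativeDimension_SpecMap R (Nat.card ι)
  have h4 : SmoothOfRelativeDimension (0 + Nat.card ι)
      (Spec.map (CommRingCat.ofHom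
        ((MvPolynomial.eval₂Hom p a).comp (MvPolynomial.renameEquiv R e.symm).toRingEquiv.toRingHom)) ≫
        Spec.map (CommRingCat.ofHom (algebraMap R (MvPolynomial (Fin (Nat.card ι)) R)))) :=
    inferInstance
  have h5 : Spec.map (CommRingCat.ofHom
        ((MvPolynomial.eval₂Hom p a).comp (MvPolynomial.renameEquiv R e.symm).toRingEquiv.toRingHom)) ≫
        Spec.map (CommRingCat.ofHom (algebraMap R (MvPolynomial (Fin (Nat.card ι)) R))) =
      Spec.map (CommRingCat.ofHom p) := by
    rw [← Spec.map_comp, ← CommRingCat.ofHom_comp]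
    congr 2
    ext r
    simp [MvPolynomial.algebraMap_eq]
  rw [h5, zero_add] at h4
  exact h4

/-- Setting the `i`-th variable to zero. -/
noncomputable def kill (R : Type u) [CommRing R] {ι : Type u} [DecidableEq ι] (i : ι) :
    MvPolynomial ι R →+* MvPolynomial {j : ι // j ≠ i} R :=
  MvPolynomial.eval₂Hom MvPolynomial.C (fun j => if hj : j = i then 0 else MvPolynomial.X ⟨j, hj⟩)

theorem kill_surjective [DecidableEq ι] (i : ι) : Function.Surjective (kill R i) := by
  intro x
  refine ⟨MvPolynomial.rename Subtype.val x, ?_⟩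
  have h : (kill R i).comp (MvPolynomial.rename (Subtype.val : {j : ι // j ≠ i} → ι) :
      MvPolynomial {j : ι // j ≠ i} R →ₐ[R] MvPolynomial ι R).toRingHom = RingHom.id _ := by
    apply MvPolynomial.ringHom_ext
    · intro r
      simp [kill]
    · intro j
      simp [kill, j.2]
  exact congrArg (fun k => k x) h

/-- Restriction of étale coordinates to a coordinate hyperplane. -/
theorem etale_quotient (h : (MvPolynomial.eval₂Hom p a).Etale) (i : ι) :
    (MvPolynomial.eval₂Hom ((Ideal.Quotient.mk (Ideal.span {a i})).comp p)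
      (fun j : {j : ι // j ≠ i} => Ideal.Quotient.mk (Ideal.span {a i}) (a j))).Etale := by
  classical
  have hEt : Etale (Spec.map (CommRingCat.ofHom (MvPolynomial.eval₂Hom p a))) := by
    rw [HasRingHomProperty.Spec_iff (P := @Etale)]
    exact h
  have hpo := Sga4B.PushoutQuot.isPushout_of_surjective
    (CommRingCat.ofHom (kill R i)) (CommRingCat.ofHom (MvPolynomial.eval₂Hom p a))
    (CommRingCat.ofHom (MvPolynomial.eval₂Hom ((Ideal.Quotient.mk (Ideal.span {a i})).comp p)
      (fun j : {j : ι // j ≠ i} => Ideal.Quotient.mk (Ideal.span {a i}) (a j))))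
    (CommRingCat.ofHom (Ideal.Quotient.mk (Ideal.span {a i}))) (by
      rw [← CommRingCat.ofHom_comp, ← CommRingCat.ofHom_comp]
      congr 1
      apply MvPolynomial.ringHom_ext
      · intro r
        simp [kill]
      · intro k
        by_cases hk : k = i
        · subst hk
          simp only [kill, RingHom.comp_apply, MvPolynomial.eval₂Hom_X', dif_pos, map_zero]
          exact (Ideal.Quotient.eq_zero_iff_mem.2 (Ideal.mem_span_singleton_self _)).symm
        · simp [kill, hk]) (kill_surjective i) Ideal.Quotient.mk_surjective (by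
      change RingHom.ker (Ideal.Quotient.mk (Ideal.span {a i})) ≤ _
      rw [Ideal.mk_ker, Ideal.span_le, Set.singleton_subset_iff]
      have h1 : (MvPolynomial.X i : MvPolynomial ι R) ∈ RingHom.ker (kill R i) := by
        rw [RingHom.mem_ker]
        simp [kill]
      have h2 := Ideal.mem_map_of_mem (MvPolynomial.eval₂Hom p a) h1
      rw [MvPolynomial.eval₂Hom_X'] at h2
      exact h2)
  have := MorphismProperty.of_isPullback (isPullback_SpecMap_of_isPushout _ _ _ _ hpo).flip hEt
  rwa [HasRingHomProperty.Spec_iff (P := @Etale)] at this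

theorem card_ne [Finite ι] (i : ι) : Nat.card {j : ι // j ≠ i} + 1 = Nat.card ι := by
  classical
  have := Fintype.ofFinite ι
  rw [Nat.card_eq_fintype_card, Nat.card_eq_fintype_card, Fintype.card_subtype_compl,
    Fintype.card_unique (α := {j : ι // j = i})]
  have : 0 < Fintype.card ι := Fintype.card_pos_iff.2 ⟨i⟩
  omega

/-- The smooth pair defined by a coordinate hyperplane: the ambient scheme. -/
theorem smooth_ambient [Finite ι] (h : (MvPolynomial.eval₂Hom p a).Etale) (i : ι) :
    SmoothOfRelativeDimension (Nat.card {j : ι // j ≠ i} + 1) (Spec.map (CommRingCat.ofHom p)) := by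
  rw [card_ne]
  exact smoothOfRelativeDimension p a h

/-- The smooth pair defined by a coordinate hyperplane: the hyperplane. -/
theorem smooth_hyperplane [Finite ι] (h : (MvPolynomial.eval₂Hom p a).Etale) (i : ι) :
    SmoothOfRelativeDimension (Nat.card {j : ι // j ≠ i})
      (Spec.map (CommRingCat.ofHom ((Ideal.Quotient.mk (Ideal.span {a i})).comp p))) :=
  smoothOfRelativeDimension _ _ (etale_quotient p a h i)

/-- The closed immersion of a principal divisor. -/
noncomputable abbrev hyp (x : A) : Spec (CommRingCat.of (A ⧸ Ideal.span {x})) ⟶ Spec (CommRingCat.of A) :=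
  Spec.map (CommRingCat.ofHom (Ideal.Quotient.mk (Ideal.span {x})))

instance (x : A) : IsClosedImmersion (hyp x) :=
  IsClosedImmersion.spec_of_surjective _ Ideal.Quotient.mk_surjective

instance (x : A) : LocallyOfFinitePresentation (hyp x) := by
  rw [HasRingHomProperty.Spec_iff (P := @LocallyOfFinitePresentation)]
  exact RingHom.FinitePresentation.of_surjective _ Ideal.Quotient.mk_surjective (by
    change (RingHom.ker (Ideal.Quotient.mk (Ideal.span {x}))).FG
    rw [Ideal.mk_ker]
    exact ⟨{x}, by simp⟩)

theorem range_hyp (x : A) : Set.range (hyp x) = (PrimeSpectrum.basicOpen x : Set (PrimeSpectrum A))ᶜ := by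
  have h2 := range_comap_of_surjective (A ⧸ Ideal.span {x}) (Ideal.Quotient.mk (Ideal.span {x}))
    Ideal.Quotient.mk_surjective
  refine (show Set.range (hyp x) = _ from h2).trans ?_
  rw [Ideal.mk_ker, PrimeSpectrum.zeroLocus_span, PrimeSpectrum.basicOpen_eq_zeroLocus_compl, compl_compl]

end Groth.Agent.Pi1.H405.Geom
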