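import Groth.Agent.Pi1.H405.Closed

/-!
# `R¹ j_*` for the complement of several divisors

`V i` open subschemes of `X` (the complements of divisors `D i`) such that `M → k_{i*} k_i^* M` is an
isomorphism, `R² k_{i*} M = 0`, `R¹ k_{i*} M` is constructible and, for `i' ≠ i`, is the direct image of its
restriction to `V i'`.  Then `R¹ j_* M` is constructible for `j : ⋂_{i ∈ J} V i → X`.
-/

set_option autoImplicit false
universe u
open CategoryTheory CategoryTheory.Limits AlgebraicGeometry Opposite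

namespace Groth.Agent.Pi1.H405.Induct

open Groth.Agent.Pi1.H405.Closed Groth.Agent.Pi1.H405.FiveTerm

variable {X : Scheme.{u}} (M : Type) [AddCommGroup M] {ι : Type*} (V : ι → X.Opens)

/-- The hypotheses of the induction. -/
structure Hyp : Prop where
  unit : ∀ i, IsIso ((EtCoh.pullPushAdj (V i).ι).unit.app (EtCoh.const X M))
  zero : ∀ i, IsZero ((EtCoh.Rpush (V i).ι 2).obj ((EtCoh.pull (V i).ι).obj (EtCoh.const X M)))
  cons : ∀ i, EtPBC.IsConstructible
    ((EtCoh.Rpush (V i).ι 1).obj ((EtCoh.pull (V i).ι).obj (EtCoh.const X M)))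
  closed : ∀ i i', i ≠ i' → IsIso ((EtCoh.pullPushAdj (V i').ι).unit.app
    ((EtCoh.Rpush (V i).ι 1).obj ((EtCoh.pull (V i).ι).obj (EtCoh.const X M))))

/-- The conclusion of the induction, for an open immersion `j`. -/
structure Good (J : Finset ι) {U : Scheme.{u}} (j : U ⟶ X) : Prop where
  unit : IsIso ((EtCoh.pullPushAdj j).unit.app (EtCoh.const X M))
  cons : EtPBC.IsConstructible ((EtCoh.Rpush j 1).obj (EtCoh.const U M))
  closed : ∀ i ∉ J, IsIso ((EtCoh.pullPushAdj (V i).ι).unit.app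
    ((EtCoh.Rpush j 1).obj (EtCoh.const U M)))

/-- Higher direct images along isomorphisms vanish. -/
theorem isZero_Rpush_of_isIso {U : Scheme.{u}} (j : U ⟶ X) [IsIso j] (F : EtCoh.Ab U) (n : ℕ) :
    IsZero ((EtCoh.Rpush j (n + 1)).obj F) :=
  Etbase.PushExact.isZero_rightDerived_of_exact (EtCoh.push j) F n

theorem good_empty {U : Scheme.{u}} (j : U ⟶ X) [IsIso j] : Good M V ∅ j where
  unit := inferInstance
  cons := EtpbcA.ConsExact.isConstructible_of_isZero (isZero_Rpush_of_isIso j _ 0)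
  closed _ _ := isIso_unit_of_isZero _ (isZero_Rpush_of_isIso j _ 0)

/-- The induction step. -/
theorem good_insert (H : Hyp M V) [DecidableEq ι] {J : Finset ι} {i : ι} (hi : i ∉ J)
    {U U' : Scheme.{u}} (j' : U' ⟶ X) [IsOpenImmersion j'] (hj' : Good M V J j')
    (a : U ⟶ (V i).toScheme) [IsOpenImmersion a] (c : U ⟶ U') [IsOpenImmersion c]
    (sq : IsPullback c a j' (V i).ι) : Good M V (insert i J) (a ≫ (V i).ι) := by
  have h1 := H.unit i
  have h1' := hj'.unit
  -- `a_* M = k^* M`
  let eC : EtCoh.const U M ≅ (EtCoh.pull c).obj (EtCoh.const U' M) := (Sga4B.Pure.pullConst c M).symm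
  let e1 : (EtCoh.push a).obj (EtCoh.const U M) ≅
      (EtCoh.pull (V i).ι).obj (EtCoh.const X M) :=
    (EtCoh.push a).mapIso eC ≪≫
      ((Sga4B.Pure.pushPullIso j' (V i).ι c a sq).app (EtCoh.const U' M)).symm ≪≫
      (EtCoh.pull (V i).ι).mapIso ((EtCoh.push j').mapIso (Sga4B.Pure.pullConst j' M).symm) ≪≫
      (EtCoh.pull (V i).ι).mapIso (asIso ((EtCoh.pullPushAdj j').unit.app (EtCoh.const X M))).symm
  -- the unit for the composition
  have hunit : IsIso ((EtCoh.pullPushAdj (a ≫ (V i).ι)).unit.app (EtCoh.const X M)) :=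
    isIso_unit_of_iso_push (a ≫ (V i).ι) (G := EtCoh.const U M)
      (asIso ((EtCoh.pullPushAdj (V i).ι).unit.app (EtCoh.const X M)) ≪≫
        (EtCoh.push (V i).ι).mapIso e1.symm ≪≫ (EtCoh.pushComp (V i).ι a).app _)
  -- the low degree exact sequence
  obtain ⟨S, hS, ⟨f1⟩, ⟨f2⟩, ⟨f3⟩⟩ := exists_shortExact a (V i).ι (EtCoh.const U M)
    ((H.zero i).of_iso ((EtCoh.Rpush (V i).ι 2).mapIso e1))
  let g1 : S.X₁ ≅ (EtCoh.Rpush (V i).ι 1).obj ((EtCoh.pull (V i).ι).obj (EtCoh.const X M)) :=
    f1 ≪≫ (EtCoh.Rpush (V i).ι 1).mapIso e1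
  -- `k_* R¹ a_* M = k_* k^* R¹ j'_* M = R¹ j'_* M`
  obtain ⟨e3⟩ := Etrest.FLCLocal.pull_Rpush_iso (V i).ι j' c a sq (EtCoh.const U' M) 1
  have h3 := hj'.closed i hi
  let g3 : S.X₃ ≅ (EtCoh.Rpush j' 1).obj (EtCoh.const U' M) :=
    f3 ≪≫ (EtCoh.push (V i).ι).mapIso ((EtCoh.Rpush a 1).mapIso eC ≪≫ e3.symm) ≪≫
      (asIso ((EtCoh.pullPushAdj (V i).ι).unit.app ((EtCoh.Rpush j' 1).obj (EtCoh.const U' M)))).symm
  refine ⟨hunit, ?_, fun i' hi' => ?_⟩
  · refine EtpbcA.StrataGlob.isConstructible_of_iso f2 ?_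
    exact EtpbcA.ConsExact.isConstructible_extension hS
      (EtpbcA.StrataGlob.isConstructible_of_iso g1.symm (H.cons i))
      (EtpbcA.StrataGlob.isConstructible_of_iso g3.symm hj'.cons)
  · rw [Finset.mem_insert, not_or] at hi'
    refine isIso_unit_of_iso _ f2 ?_
    exact isIso_unit_of_shortExact _ hS
      (isIso_unit_of_iso _ g1.symm (H.closed i i' (fun h => hi'.1 h.symm)))
      (isIso_unit_of_iso _ g3.symm (hj'.closed i' hi'.2))

/-- **Main induction**. -/
theorem main (H : Hyp M V) (J : Finset ι) : ∀ {U : Scheme.{u}} (j : U ⟶ X) [IsOpenImmersion j],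
    (Set.range j = {x | ∀ i ∈ J, x ∈ V i}) → Good M V J j := by
  classical
  induction J using Finset.induction_on with
  | empty =>
    intro U j hj hr
    have hs : j.opensRange = ⊤ := by
      ext x
      change x ∈ Set.range j ↔ _
      rw [hr]
      simp
    have : IsIso j := isIso_of_isOpenImmersion_of_opensRange_eq_top j hs
    exact good_empty M V j
  | insert i J hi ih =>
    intro U j hj hr
    let U' : X.Opens := ⟨{x | ∀ i ∈ J, x ∈ V i}, by
      have h : {x : X | ∀ i ∈ J, x ∈ V i} = ⋂ i ∈ J, (V i : Set X) := by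
        ext x
        simp
      rw [h]
      exact isOpen_biInter_finset fun i _ => (V i).2⟩
    have hr' : Set.range U'.ι = {x | ∀ i ∈ J, x ∈ V i} := by
      rw [Scheme.Opens.range_ι]
      rfl
    have hj' := ih U'.ι hr'
    have ha : Set.range j ⊆ Set.range (V i).ι := by
      rw [hr, Scheme.Opens.range_ι]
      exact fun x hx => hx i (Finset.mem_insert_self i J)
    have hc : Set.range j ⊆ Set.range U'.ι := by
      rw [hr, hr']
      exact fun x hx i' hi' => hx i' (Finset.mem_insert_of_mem hi')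
    let a : U ⟶ (V i).toScheme := IsOpenImmersion.lift (V i).ι j ha
    let c : U ⟶ U'.toScheme := IsOpenImmersion.lift U'.ι j hc
    have hak : a ≫ (V i).ι = j := IsOpenImmersion.lift_fac _ _ _
    have hck : c ≫ U'.ι = j := IsOpenImmersion.lift_fac _ _ _
    have : IsOpenImmersion (a ≫ (V i).ι) := by rw [hak]; infer_instance
    have : IsOpenImmersion a := IsOpenImmersion.of_comp a (V i).ι
    have : IsOpenImmersion (c ≫ U'.ι) := by rw [hck]; infer_instance
    have : IsOpenImmersion c := IsOpenImmersion.of_comp c U'.ι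
    have hra : Set.range a = (V i).ι ⁻¹' Set.range U'.ι := by
      ext y
      have h1 : y ∈ Set.range a ↔ (V i).ι y ∈ Set.range j := by
        constructor
        · rintro ⟨z, rfl⟩
          exact ⟨z, by rw [← hak]; rfl⟩
        · rintro ⟨z, hz⟩
          refine ⟨z, (V i).ι.isOpenEmbedding.injective ?_⟩
          rw [← hz, ← hak]
          rfl
      rw [h1, hr, Set.mem_preimage, hr']
      constructor
      · exact fun h i' hi' => h i' (Finset.mem_insert_of_mem hi')
      · intro h i' hi'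
        rcases Finset.mem_insert.1 hi' with rfl | h'
        · exact y.2
        · exact h i' h'
    obtain ⟨c', sq⟩ := Sga4B.LocCohLocal.isPullback_of_range U'.ι (V i).ι a hra
    have hcc : c' = c := by
      rw [← cancel_mono U'.ι, hck, sq.w, hak]
    rw [hcc] at sq
    have := good_insert M V H hi U'.ι hj' a c sq
    rwa [hak] at this

end Groth.Agent.Pi1.H405.Induct
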